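import Mathlib
import Cfsg.Agent.Lib.Involutions2.NormalFour

/-!
# A normal subgroup normalising enough Sylow subgroups is trivial
-/

set_option autoImplicit false
set_option linter.unusedSectionVars false
set_option linter.style.haveILetI false
set_option linter.unusedVariables false

namespace Cfsg.Agent.Lib.SylNum.KerTriv

open Subgroup MulAction

variable {G : Type*} [Group G] [Finite G]

theorem comm_of_mem_normalizer {A B : Subgroup G} (hA : A.Normal) (hd : A ⊓ B = ⊥) {a b : G}
    (ha : a ∈ A) (hab : a ∈ normalizer (B : Set G)) (hb : b ∈ B) : a * b = b * a := by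
  have h1 : a * b * a⁻¹ * b⁻¹ ∈ A := by
    have h0 : b * a⁻¹ * b⁻¹ ∈ A := hA.conj_mem _ (A.inv_mem ha) b
    have h := A.mul_mem ha h0
    convert h using 1
    group
  have h2 : a * b * a⁻¹ * b⁻¹ ∈ B := B.mul_mem ((mem_normalizer_iff.mp hab b).mp hb) (B.inv_mem hb)
  have h3 : a * b * a⁻¹ * b⁻¹ ∈ A ⊓ B := ⟨h1, h2⟩
  rw [hd, mem_bot] at h3
  calc a * b = (a * b * a⁻¹ * b⁻¹) * (b * a) := by group
    _ = b * a := by rw [h3, one_mul]

theorem mem_normalizer_of_comm {B : Subgroup G} {a : G} (h : ∀ b ∈ B, a * b = b * a) :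
    a ∈ normalizer (B : Set G) := by
  rw [mem_normalizer_iff]
  intro b
  constructor
  · intro hb
    have : a * b * a⁻¹ = b := by rw [h b hb]; group
    rw [this]
    exact hb
  · intro hb
    have h1 := h _ hb
    have : b = a * b * a⁻¹ := by
      calc b = a⁻¹ * (a * b * a⁻¹ * a) := by group
        _ = a⁻¹ * (a * (a * b * a⁻¹)) := by rw [h1]
        _ = a * b * a⁻¹ := by group
    rw [this]
    exact hb

theorem eq_bot_of_centralized {r : ℕ} [Fact r.Prime] (hZ : center G = ⊥) {A : Subgroup G}
    (hA : A.Normal) (hAr : IsPGroup r A)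
    (hS : ∀ p : ℕ, p.Prime → p ≠ r → p ∣ Nat.card G → ∃ (_ : Fact p.Prime) (S : Sylow p G),
      ∀ s ∈ (S : Subgroup G), ∀ a ∈ A, s * a = a * s) : A = ⊥ := by
  classical
  by_contra hne
  let T : Sylow r G := Classical.arbitrary _
  have hAT : A ≤ (T : Subgroup G) := hAr.le_sylow_of_normal T
  let N : Subgroup T := A.subgroupOf T
  haveI hN : N.Normal := hA.subgroupOf _
  have hN1 : N ≠ ⊥ := by
    intro h
    apply hne
    rw [eq_bot_iff]
    intro a ha
    have h2 : (⟨a, hAT ha⟩ : T) ∈ N := ha
    rw [h, mem_bot] at h2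
    have := congrArg Subtype.val h2
    simpa using this
  obtain ⟨z, hz1⟩ := (Subgroup.ne_bot_iff_exists_ne_one.mp
    (Cfsg.Agent.Lib.Involutions2.NormalFour.inf_center_ne_bot T.isPGroup' N hN1))
  obtain ⟨⟨hzN, hzC⟩, -⟩ := And.intro z.2 True.intro
  have hzA : ((z : T) : G) ∈ A := hzN
  have hz1' : ((z : T) : G) ≠ 1 := by
    intro h
    apply hz1
    apply Subtype.ext
    apply Subtype.ext
    exact h
  set w : G := ((z : T) : G) with hw
  have hzT : ∀ t ∈ (T : Subgroup G), t * w = w * t := by
    intro t ht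
    have := mem_center_iff.mp hzC ⟨t, ht⟩
    exact congrArg Subtype.val this
  let C : Subgroup G := centralizer ({w} : Set G)
  have hC : ∀ g : G, g ∈ C ↔ w * g = g * w := by
    intro g
    rw [mem_centralizer_iff]
    constructor
    · intro h
      exact h w rfl
    · rintro h u rfl
      exact h
  have hidx : C.index = 1 := by
    by_contra hne1
    obtain ⟨p, hp, hpd⟩ := Nat.exists_prime_and_dvd hne1
    by_cases hpr : p = r
    · subst hpr
      have hTC : (T : Subgroup G) ≤ C := fun t ht => (hC t).mpr (hzT t ht).symm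
      exact T.not_dvd_index (hpd.trans (index_dvd_of_le hTC))
    · have hpG : p ∣ Nat.card G := hpd.trans C.index_dvd_card
      obtain ⟨hf, S, hSc⟩ := hS p hp hpr hpG
      have hSC : (S : Subgroup G) ≤ C := fun s hs => (hC s).mpr (hSc s hs w hzA).symm
      exact S.not_dvd_index (hpd.trans (index_dvd_of_le hSC))
  have htop : C = ⊤ := index_eq_one.mp hidx
  have hwc : w ∈ center G := by
    rw [mem_center_iff]
    intro g
    have : g ∈ C := by rw [htop]; trivial
    exact ((hC g).mp this).symm
  rw [hZ, mem_bot] at hwc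
  exact hz1' hwc

/-- An `r`-element lying in a subgroup normalising a Sylow `r`-subgroup lies in it. -/
theorem mem_of_pow_of_normalizer {r : ℕ} [Fact r.Prime] (S : Sylow r G) {y : G} {k : ℕ}
    (hy : y ^ (r ^ k) = 1) (hyN : y ∈ normalizer ((S : Subgroup G) : Set G)) :
    y ∈ (S : Subgroup G) := by
  have hp : IsPGroup r (zpowers y) := by
    have h1 : orderOf y ∣ r ^ k := orderOf_dvd_of_pow_eq_one hy
    obtain ⟨j, -, hj⟩ := (Nat.dvd_prime_pow (Fact.out : r.Prime)).mp h1
    apply IsPGroup.of_card (n := j)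
    rw [Nat.card_zpowers, hj]
  have h1 : zpowers y ⊓ normalizer ((S : Subgroup G) : Set G) = zpowers y ⊓ (S : Subgroup G) :=
    hp.inf_normalizer_sylow S
  have h2 : y ∈ zpowers y ⊓ normalizer ((S : Subgroup G) : Set G) := ⟨mem_zpowers y, hyN⟩
  rw [h1] at h2
  exact h2.2

/-- The core `K ⊓ core S`. -/
def core (K S : Subgroup G) : Subgroup G := K ⊓ S.normalCore

theorem core_normal {K S : Subgroup G} (hK : K.Normal) : (core K S).Normal := by
  unfold core
  infer_instance

theorem core_le_left {K S : Subgroup G} : core K S ≤ K := inf_le_left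

theorem core_le_right {K S : Subgroup G} : core K S ≤ S := inf_le_right.trans S.normalCore_le

theorem core_pgroup {K : Subgroup G} {r : ℕ} [Fact r.Prime] (S : Sylow r G) :
    IsPGroup r (core K S) :=
  S.isPGroup'.to_le core_le_right

theorem mem_core {K : Subgroup G} (hK : K.Normal) {r : ℕ} [Fact r.Prime] (S : Sylow r G)
    (hKS : K ≤ normalizer ((S : Subgroup G) : Set G)) {x : G} {k : ℕ} (hx : x ∈ K)
    (hxk : x ^ (r ^ k) = 1) : x ∈ core K S := by
  refine ⟨hx, ?_⟩
  intro b
  apply mem_of_pow_of_normalizer S (k := k)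
  · rw [conj_pow, hxk]
    group
  · exact hKS (hK.conj_mem x hx b)

/-- A normal `q`-subgroup centralises each Sylow `r`-subgroup, if the number of these is less than
`q²` and `r ∤ q - 1`. -/
theorem centralize_sylow {q r : ℕ} [Fact q.Prime] [Fact r.Prime] (hqr : q ≠ r) {D : Subgroup G}
    (hD : D.Normal) (hDq : IsPGroup q D) (R : Sylow r G)
    (hlt : Nat.card (Sylow r G) < q ^ 2) (hr : ¬ r ∣ q - 1) :
    ∀ s ∈ (R : Subgroup G), ∀ d ∈ D, s * d = d * s := by
  classical
  have hq : q.Prime := Fact.out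
  have hrp : r.Prime := Fact.out
  have hdisj : D ⊓ (R : Subgroup G) = ⊥ :=
    (IsPGroup.disjoint_of_ne q r hqr D R hDq R.isPGroup').eq_bot
  have hstab : ∀ d : D, d ∈ stabilizer D R ↔ ∀ s ∈ (R : Subgroup G), s * (d : G) = d * s := by
    intro d
    rw [mem_stabilizer_iff, Subgroup.smul_def, Sylow.smul_eq_iff_mem_normalizer]
    constructor
    · intro h s hs
      exact (comm_of_mem_normalizer hD hdisj d.2 h hs).symm
    · intro h
      exact mem_normalizer_of_comm (fun b hb => (h b hb).symm)
  obtain ⟨j, hj⟩ := hDq.index (stabilizer D R)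
  have hcard := Subgroup.card_mul_index (stabilizer D R)
  have hle : (stabilizer D R).index ≤ Nat.card (Sylow r G) := by
    rw [MulAction.index_stabilizer]
    calc (orbit D R).ncard ≤ (Set.univ : Set (Sylow r G)).ncard :=
          Set.ncard_le_ncard (Set.subset_univ _) (Set.toFinite _)
      _ = _ := Set.ncard_univ _
  have hj2 : j < 2 := by
    rw [hj] at hle
    exact (Nat.pow_lt_pow_iff_right hq.one_lt).mp (lt_of_le_of_lt hle hlt)
  have hall : ∀ d : D, d ∈ stabilizer D R := by
    rcases (by omega : j = 0 ∨ j = 1) with rfl | rfl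
    · rw [pow_zero, index_eq_one] at hj
      intro d
      rw [hj]
      trivial
    · exfalso
      rw [pow_one] at hj
      rw [hj] at hcard
      -- `R` acts on `D` by conjugation
      letI act : MulAction (R : Subgroup G) D :=
        MulAction.compHom D ((MulAut.conjNormal (H := D)).comp (R : Subgroup G).subtype)
      have hsm : ∀ (s : (R : Subgroup G)) (d : D), ((s • d : D) : G) = s * d * (s : G)⁻¹ := by
        intro s d
        rfl
      have hmod := IsPGroup.card_modEq_card_fixedPoints (G := (R : Subgroup G)) R.isPGroup' D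
      have hfix : Nat.card (fixedPoints (R : Subgroup G) D) = Nat.card (stabilizer D R) := by
        apply Nat.card_congr
        refine Equiv.subtypeEquivRight ?_
        intro d
        rw [mem_fixedPoints, hstab]
        constructor
        · intro h s hs
          have h1 := h ⟨s, hs⟩
          have h2 := congrArg Subtype.val h1
          rw [hsm] at h2
          change s * (d : G) * s⁻¹ = d at h2
          rw [mul_inv_eq_iff_eq_mul] at h2
          exact h2
        · intro h s
          apply Subtype.ext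
          rw [hsm]
          change (s : G) * (d : G) * (s : G)⁻¹ = d
          rw [h s s.2]
          group
      rw [hfix] at hmod
      set c := Nat.card (stabilizer D R) with hc
      rw [← hcard] at hmod
      have h1 : r ∣ (q - 1) * c := by
        have h2 := (Nat.modEq_iff_dvd' (by nlinarith [hq.one_lt, Nat.zero_le c])).mp hmod.symm
        have h3 : c * q - c = (q - 1) * c := by
          rw [Nat.sub_mul, one_mul, mul_comm]
        rwa [h3] at h2
      rcases hrp.dvd_mul.mp h1 with h2 | h2
      · exact hr h2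
      · have hcq : IsPGroup q (stabilizer D R) := hDq.to_subgroup _
        obtain ⟨n, hn⟩ := IsPGroup.iff_card.mp hcq
        rw [← hc] at hn
        rw [hn] at h2
        have h3 := hrp.dvd_of_dvd_pow h2
        exact hqr ((Nat.prime_dvd_prime_iff_eq hrp hq).mp h3).symm
  intro s hs d hd
  exact (hstab ⟨d, hd⟩).mp (hall ⟨d, hd⟩) s hs

/-- The main reduction for the kernel. -/
theorem ker_eq_bot (hZ : center G = ⊥) {K : Subgroup G} (hK : K.Normal)
    (hpr : ∀ r : ℕ, r.Prime → r ∣ Nat.card G → r = 2 ∨ r = 3 ∨ r = 17 ∨ r = 5 ∨ r = 19)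
    (hKN : ∀ r : ℕ, (r = 2 ∨ r = 3 ∨ r = 17) → ∀ S : Sylow r G,
      K ≤ normalizer ((S : Subgroup G) : Set G))
    (hK5 : ∀ r : ℕ, (r = 5 ∨ r = 19) → r ∣ Nat.card G → ∀ S : Sylow r G, (S : Subgroup G) ≤ K)
    (hn5 : ∀ r : ℕ, (r = 5 ∨ r = 19) → r ∣ Nat.card G →
      17 ∣ Nat.card (Sylow r G) ∧ Nat.card (Sylow r G) < 17 ^ 2) : K = ⊥ := by
  classical
  haveI f2 : Fact (Nat.Prime 2) := ⟨Nat.prime_two⟩
  haveI f3 : Fact (Nat.Prime 3) := ⟨Nat.prime_three⟩
  haveI f5 : Fact (Nat.Prime 5) := ⟨by norm_num⟩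
  haveI f17 : Fact (Nat.Prime 17) := ⟨by norm_num⟩
  haveI f19 : Fact (Nat.Prime 19) := ⟨by norm_num⟩
  -- commutation of `core` with Sylow subgroups for other primes in `{2,3,17}`
  have hcomm : ∀ (r p : ℕ) (hr : Fact r.Prime) (hp : Fact p.Prime), p ≠ r →
      (p = 2 ∨ p = 3 ∨ p = 17) → ∀ (R : Sylow r G) (S : Sylow p G),
      ∀ s ∈ (S : Subgroup G), ∀ a ∈ core K (R : Subgroup G), s * a = a * s := by
    intro r p hr hp hne hp3 R S s hs a ha
    have hd : core K (R : Subgroup G) ⊓ (S : Subgroup G) = ⊥ :=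
      (IsPGroup.disjoint_of_ne r p hne.symm _ _ (core_pgroup R) S.isPGroup').eq_bot
    exact (comm_of_mem_normalizer (core_normal hK) hd ha (hKN p hp3 S (core_le_left ha)) hs).symm
  let P : Sylow 17 G := Classical.arbitrary _
  have hD : core K (P : Subgroup G) = ⊥ := by
    apply eq_bot_of_centralized (r := 17) hZ (core_normal hK) (core_pgroup P)
    intro p hp hne hpd
    haveI hfp : Fact p.Prime := ⟨hp⟩
    refine ⟨hfp, Classical.arbitrary _, ?_⟩
    rcases hpr p hp hpd with rfl | rfl | rfl | rfl | rfl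
    · exact hcomm 17 2 f17 hfp (by norm_num) (Or.inl rfl) P _
    · exact hcomm 17 3 f17 hfp (by norm_num) (Or.inr (Or.inl rfl)) P _
    · exact absurd rfl hne
    · exact centralize_sylow (by norm_num) (core_normal hK) (core_pgroup P) _
        (hn5 5 (Or.inl rfl) hpd).2 (by norm_num)
    · exact centralize_sylow (by norm_num) (core_normal hK) (core_pgroup P) _
        (hn5 19 (Or.inr rfl) hpd).2 (by norm_num)
  -- `K` meets `P` trivially
  have hKP : K ⊓ (P : Subgroup G) = ⊥ := by
    rw [eq_bot_iff]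
    rintro x ⟨hxK, hxP⟩
    obtain ⟨n, hn⟩ := IsPGroup.iff_card.mp P.isPGroup'
    have hxx : (⟨x, hxP⟩ : (P : Subgroup G)) ^ (17 ^ n) = 1 := by
      rw [← hn]
      exact pow_card_eq_one'
    have hxk : x ^ (17 ^ n) = 1 := by
      have := congrArg Subtype.val hxx
      simpa using this
    have := mem_core hK P (hKN 17 (Or.inr (Or.inr rfl)) P) hxK hxk
    rw [hD] at this
    exact this
  have hKPc : ∀ x ∈ K, ∀ y ∈ (P : Subgroup G), x * y = y * x := by
    intro x hx y hy
    exact comm_of_mem_normalizer hK hKP hx (hKN 17 (Or.inr (Or.inr rfl)) P hx) hy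
  -- `5` and `19` do not divide the order
  have hno : ∀ r : ℕ, (r = 5 ∨ r = 19) → ¬ r ∣ Nat.card G := by
    intro r hr hrd
    haveI hfr : Fact r.Prime := by
      rcases hr with rfl | rfl
      · exact f5
      · exact f19
    let R : Sylow r G := Classical.arbitrary _
    have hPN : (P : Subgroup G) ≤ normalizer ((R : Subgroup G) : Set G) := by
      intro y hy
      apply mem_normalizer_of_comm
      intro b hb
      exact (hKPc b (hK5 r hr hrd R hb) y hy).symm
    have h1 := R.card_eq_index_normalizer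
    have h2 : 17 ∣ (normalizer ((R : Subgroup G) : Set G)).index := by
      have := (hn5 r hr hrd).1
      rw [h1] at this
      exact this
    exact P.not_dvd_index (h2.trans (index_dvd_of_le hPN))
  have hpr3 : ∀ r : ℕ, r.Prime → r ∣ Nat.card G → r = 2 ∨ r = 3 ∨ r = 17 := by
    intro r hr hrd
    rcases hpr r hr hrd with h | h | h | h | h
    · exact Or.inl h
    · exact Or.inr (Or.inl h)
    · exact Or.inr (Or.inr h)
    · exact absurd hrd (hno r (Or.inl h))
    · exact absurd hrd (hno r (Or.inr h))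
  have hO : ∀ (r : ℕ) (hr : Fact r.Prime), (r = 2 ∨ r = 3 ∨ r = 17) → ∀ R : Sylow r G,
      core K (R : Subgroup G) = ⊥ := by
    intro r hfr hr3 R
    apply eq_bot_of_centralized (r := r) hZ (core_normal hK) (core_pgroup R)
    intro p hp hne hpd
    haveI hfp : Fact p.Prime := ⟨hp⟩
    exact ⟨hfp, Classical.arbitrary _, hcomm r p hfr hfp hne (hpr3 p hp hpd) R _⟩
  by_contra hKne
  have hK1 : Nat.card K ≠ 1 := by
    intro h
    exact hKne (Subgroup.eq_bot_of_card_eq K h)
  have hp := Nat.minFac_prime hK1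
  set p := (Nat.card K).minFac with hpdef
  haveI hfp : Fact p.Prime := ⟨hp⟩
  have hpK : p ∣ Nat.card K := Nat.minFac_dvd _
  have hpG : p ∣ Nat.card G := hpK.trans (Subgroup.card_subgroup_dvd_card K)
  obtain ⟨x, hx⟩ := exists_prime_orderOf_dvd_card' p hpK
  have hx1 : (x : G) ^ (p ^ 1) = 1 := by
    have h1 : x ^ p = 1 := by rw [← hx]; exact pow_orderOf_eq_one x
    have := congrArg Subtype.val h1
    simpa using this
  have hp3 := hpr3 p hp hpG
  let R : Sylow p G := Classical.arbitrary _
  have hmem := mem_core hK R (hKN p hp3 R) x.2 hx1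
  rw [hO p hfp hp3 R, mem_bot] at hmem
  have hx' : x = 1 := Subtype.ext hmem
  rw [hx', orderOf_one] at hx
  exact hp.one_lt.ne hx

end Cfsg.Agent.Lib.SylNum.KerTriv
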