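import Cfsg.Agent.Lib.SylNum.Zass18
import Cfsg.Agent.Lib.SylNum.KerTriv
import Cfsg.Agent.Lib.Classical.AltIso
import Cfsg.Agent.Lib.Classical.FieldTransfer

/-!
# Groups with Sylow numbers `{18, 136, 153}`
-/

set_option autoImplicit false
set_option linter.unusedSectionVars false
set_option linter.style.haveILetI false
set_option linter.unusedVariables false

namespace Cfsg.Agent.Lib.SylNum.L217

open Cfsg MulAction Subgroup
open Cfsg.Agent.Lib.SylNum.Zass18
open Cfsg.Agent.Lib.Zass.Stab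

variable {G : Type*} [Group G] [Finite G]

theorem sylow_numbers
    (hNS : {c : ℕ | ∃ r : ℕ, r.Prime ∧ r ∣ Nat.card G ∧ c = Nat.card (Sylow r G)} =
      ({18, 136, 153} : Set ℕ)) :
    (∀ r : ℕ, r.Prime → r ∣ Nat.card G → r = 2 ∨ r = 3 ∨ r = 17 ∨ r = 5 ∨ r = 19) ∧
    Nat.card (Sylow 17 G) = 18 ∧ Nat.card (Sylow 2 G) = 153 ∧ Nat.card (Sylow 3 G) = 136 ∧
    (5 ∣ Nat.card G → Nat.card (Sylow 5 G) = 136) ∧
    (19 ∣ Nat.card G → Nat.card (Sylow 19 G) = 153) := by
  have hmem : ∀ r : ℕ, r.Prime → r ∣ Nat.card G →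
      Nat.card (Sylow r G) = 18 ∨ Nat.card (Sylow r G) = 136 ∨ Nat.card (Sylow r G) = 153 := by
    intro r hr hd
    have : Nat.card (Sylow r G) ∈ ({18, 136, 153} : Set ℕ) := by
      rw [← hNS]
      exact ⟨r, hr, hd, rfl⟩
    simpa using this
  have hmod : ∀ r : ℕ, r.Prime → Nat.card (Sylow r G) % r = 1 := by
    intro r hr
    haveI : Fact r.Prime := ⟨hr⟩
    have h1 : Nat.card (Sylow r G) ≡ 1 [MOD r] := card_sylow_modEq_one r G
    rw [Nat.ModEq, Nat.mod_eq_of_lt hr.one_lt] at h1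
    exact h1
  have hdvd : ∀ r : ℕ, r.Prime → Nat.card (Sylow r G) ∣ Nat.card G := by
    intro r hr
    haveI : Fact r.Prime := ⟨hr⟩
    let P : Sylow r G := Classical.arbitrary _
    exact (P.card_dvd_index).trans (index_dvd_card _)
  have hex : ∀ c ∈ ({18, 136, 153} : Set ℕ), ∃ r : ℕ, r.Prime ∧ c ∣ Nat.card G := by
    intro c hc
    rw [← hNS] at hc
    obtain ⟨r, hr, hd, rfl⟩ := hc
    exact ⟨r, hr, hdvd r hr⟩
  obtain ⟨r1, hr1, h18⟩ := hex 18 (by simp)
  obtain ⟨r2, hr2, h136⟩ := hex 136 (by simp)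
  have h2 : 2 ∣ Nat.card G := (by norm_num : 2 ∣ 18).trans h18
  have h3 : 3 ∣ Nat.card G := (by norm_num : 3 ∣ 18).trans h18
  have h17 : 17 ∣ Nat.card G := (by norm_num : 17 ∣ 136).trans h136
  have hprime : ∀ r : ℕ, r.Prime → r ∣ Nat.card G → r = 2 ∨ r = 3 ∨ r = 17 ∨ r = 5 ∨ r = 19 := by
    intro r hr hd
    have hm := hmod r hr
    have key : ∀ c : ℕ, c % r = 1 → r ∣ c - 1 := by
      intro c hc
      have : c = r * (c / r) + 1 := by
        have := Nat.div_add_mod c r
        omega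
      rw [this, Nat.add_sub_cancel]
      exact dvd_mul_right _ _
    have h4 := key _ hm
    rcases hmem r hr hd with h | h | h <;> rw [h] at h4
    · have h5 : r ∣ 17 := h4
      have := (Nat.prime_dvd_prime_iff_eq hr (by norm_num)).mp h5
      omega
    · have h5 : r ∣ 3 ^ 3 * 5 := h4
      rcases hr.dvd_mul.mp h5 with h6 | h6
      · have := (Nat.prime_dvd_prime_iff_eq hr Nat.prime_three).mp (hr.dvd_of_dvd_pow h6)
        omega
      · have := (Nat.prime_dvd_prime_iff_eq hr (by norm_num)).mp h6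
        omega
    · have h5 : r ∣ 2 ^ 3 * 19 := h4
      rcases hr.dvd_mul.mp h5 with h6 | h6
      · have := (Nat.prime_dvd_prime_iff_eq hr Nat.prime_two).mp (hr.dvd_of_dvd_pow h6)
        omega
      · have := (Nat.prime_dvd_prime_iff_eq hr (by norm_num)).mp h6
        omega
  refine ⟨hprime, ?_, ?_, ?_, ?_, ?_⟩
  · have h5 := hmod 17 (by norm_num)
    rcases hmem 17 (by norm_num) h17 with h | h | h <;> rw [h] at h5 ⊢ <;> omega
  · have h5 := hmod 2 (by norm_num)
    rcases hmem 2 (by norm_num) h2 with h | h | h <;> rw [h] at h5 ⊢ <;> omega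
  · have h5 := hmod 3 (by norm_num)
    rcases hmem 3 (by norm_num) h3 with h | h | h <;> rw [h] at h5 ⊢ <;> omega
  · intro h5d
    have h5 := hmod 5 (by norm_num)
    rcases hmem 5 (by norm_num) h5d with h | h | h <;> rw [h] at h5 ⊢ <;> omega
  · intro h5d
    have h5 := hmod 19 (by norm_num)
    rcases hmem 19 (by norm_num) h5d with h | h | h <;> rw [h] at h5 ⊢ <;> omega

/-- The permutation representation on Sylow `17`-subgroups. -/
noncomputable abbrev phi (G : Type*) [Group G] : G →* Equiv.Perm (Sylow 17 G) :=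
  MulAction.toPermHom G (Sylow 17 G)

theorem phi_smul (g : G) (Q : Sylow 17 G) :
    ((phi G).rangeRestrict g) • Q = g • Q := rfl

section hyp
variable [hf : Fact (Nat.Prime 17)] [Fintype (Sylow 17 G)]

theorem orbit_ne (P b : Sylow 17 G) (hb : b ≠ P) :
    17 ≤ (orbit (P : Subgroup G) b).ncard := by
  obtain ⟨n, hn⟩ := P.isPGroup'.card_orbit b
  rw [Nat.card_coe_set_eq] at hn
  rw [hn]
  rcases n with _ | n
  · exfalso
    rw [pow_zero] at hn
    have hsing : ∀ p : (P : Subgroup G), p • b = b := by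
      intro p
      have h1 : p • b ∈ orbit (P : Subgroup G) b := ⟨p, rfl⟩
      have h2 : b ∈ orbit (P : Subgroup G) b := mem_orbit_self b
      obtain ⟨x, hx⟩ := Set.ncard_eq_one.mp hn
      rw [hx] at h1 h2
      rw [Set.mem_singleton_iff] at h1 h2
      rw [h1, h2]
    have hfix : b ∈ fixedPoints (P : Subgroup G) (Sylow 17 G) := hsing
    have hle : (P : Subgroup G) ≤ b := (P.isPGroup'.sylow_mem_fixedPoints_iff).mp hfix
    have heq := P.3 b.isPGroup' hle
    exact hb (Sylow.ext heq)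
  · rw [pow_succ]
    have : 1 ≤ 17 ^ n := Nat.one_le_pow _ _ (by norm_num)
    omega

theorem reg_P (h18 : Nat.card (Sylow 17 G) = 18) (P b c : Sylow 17 G) (hb : b ≠ P) (hc : c ≠ P) :
    ∃ p : (P : Subgroup G), p • b = c := by
  classical
  have h1 := orbit_ne P b hb
  have hfix : ∀ p : (P : Subgroup G), p • P = P := by
    intro p
    rw [Subgroup.smul_def, Sylow.smul_eq_iff_mem_normalizer]
    exact le_normalizer p.2
  have hsub : orbit (P : Subgroup G) b ⊆ {d | d ≠ P} := by
    rintro _ ⟨p, rfl⟩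
    change p • b ≠ P
    intro hh
    apply hb
    have := congrArg (fun z => p⁻¹ • z) hh
    simp only [inv_smul_smul] at this
    rw [this]
    exact hfix p⁻¹
  have hcard : ({d | d ≠ P} : Set (Sylow 17 G)).ncard = 17 := by
    have h2 := Set.ncard_add_ncard_compl ({P} : Set (Sylow 17 G))
    rw [Set.ncard_singleton, h18] at h2
    have h3 : ({P} : Set (Sylow 17 G))ᶜ = {d | d ≠ P} := by
      ext d
      simp
    rw [h3] at h2
    omega
  have heq := Set.eq_of_subset_of_ncard_le hsub (by rw [hcard]; exact h1) (Set.toFinite _)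
  have hc' : c ∈ orbit (P : Subgroup G) b := by
    rw [heq]
    exact hc
  obtain ⟨p, hp⟩ := hc'
  exact ⟨p, hp⟩

/-- The structure `Hyp18` for the action on the Sylow `17`-subgroups. -/
theorem hyp18 (h18 : Nat.card (Sylow 17 G) = 18) (P : Sylow 17 G) :
    Hyp18 (phi G).range (Sylow 17 G) P ((P : Subgroup G).map (phi G).rangeRestrict) := by
  classical
  set f := (phi G).rangeRestrict with hf
  have hsurj : Function.Surjective f := MonoidHom.rangeRestrict_surjective _
  have hfix : ∀ u ∈ (P : Subgroup G).map f, u • P = P := by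
    rintro _ ⟨p, hp, rfl⟩
    rw [phi_smul, Sylow.smul_eq_iff_mem_normalizer]
    exact le_normalizer hp
  have hreg : ∀ b c : Sylow 17 G, b ≠ P → c ≠ P → ∃ u ∈ (P : Subgroup G).map f, u • b = c := by
    intro b c hb hc
    obtain ⟨p, hp⟩ := reg_P h18 P b c hb hc
    exact ⟨f p, ⟨p, p.2, rfl⟩, hp⟩
  refine ⟨inferInstance, ?_, ?_, hfix, ?_, ?_, hreg⟩
  · rw [← Nat.card_eq_fintype_card, h18]
  · intro b c
    obtain ⟨g, hg⟩ := MulAction.exists_smul_eq G b c
    exact ⟨f g, hg⟩
  · intro g hg u hu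
    obtain ⟨h, rfl⟩ := hsurj g
    obtain ⟨p, hp, rfl⟩ := hu
    rw [phi_smul, Sylow.smul_eq_iff_mem_normalizer] at hg
    refine ⟨h * p * h⁻¹, ?_, by simp⟩
    exact (mem_normalizer_iff.mp hg p).mp hp
  · -- the order of the image of `P`
    have hA : IsPGroup 17 ((P : Subgroup G).map f) := P.isPGroup'.map f
    obtain ⟨k, hk⟩ := IsPGroup.iff_card.mp hA
    rw [hk]
    have hcard2 : 2 ≤ Nat.card (Sylow 17 G) := by rw [h18]; norm_num
    haveI : Nontrivial (Sylow 17 G) := by
      exact Finite.one_lt_card_iff_nontrivial.mp (by omega)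
    obtain ⟨b, hb⟩ := exists_ne P
    -- a lower bound for `k`
    have hk0 : k ≠ 0 := by
      rintro rfl
      rw [pow_zero] at hk
      have hb1 := orbit_ne P b hb
      obtain ⟨c, hc⟩ := exists_ne P
      -- `A` is trivial, so `P` fixes `b`
      have hbot := Subgroup.eq_bot_of_card_eq _ hk
      have hall : ∀ p : (P : Subgroup G), p • b = b := by
        intro p
        have h1 : f p ∈ (P : Subgroup G).map f := ⟨p, p.2, rfl⟩
        rw [hbot, mem_bot] at h1
        have h2 : (f p) • b = (p : G) • b := rfl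
        have h3 : (p : G) • b = b := by
          rw [← h2, h1, one_smul]
        exact h3
      have horb : orbit (P : Subgroup G) b = {b} := by
        ext c
        constructor
        · rintro ⟨p, rfl⟩
          exact hall p
        · rintro rfl
          exact mem_orbit_self _
      rw [horb, Set.ncard_singleton] at hb1
      omega
    have hdvd : 17 ^ k ∣ (18).factorial := by
      rw [← hk]
      have h1 : Nat.card ((P : Subgroup G).map f) ∣ Nat.card (phi G).range :=
        Subgroup.card_subgroup_dvd_card _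
      have h2 : Nat.card (phi G).range ∣ Nat.card (Equiv.Perm (Sylow 17 G)) :=
        Subgroup.card_subgroup_dvd_card _
      rw [Nat.card_perm, h18] at h2
      exact h1.trans h2
    have hk1 : k = 1 := by
      by_contra hne
      have h2 : 2 ≤ k := by omega
      have h3 : 17 ^ 2 ∣ (18).factorial := (pow_dvd_pow 17 h2).trans hdvd
      revert h3
      norm_num [Nat.factorial]
    rw [hk1, pow_one]

end hyp

section iso

variable {Ω : Type*} [Fintype Ω] [DecidableEq Ω] {X : Subgroup (Equiv.Perm Ω)} {a : Ω} {A : Subgroup X}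

theorem exists_fix2 (h : Hyp18 X Ω a A) :
    ∃ g : X, g ≠ 1 ∧ ∃ b c : Ω, b ≠ c ∧ g • b = b ∧ g • c = c := by
  by_contra hcon
  push Not at hcon
  haveI : IsMultiplyPretransitive X Ω 2 :=
    is_two_pretransitive_iff.mpr (fun hab hcd => two_trans h hab hcd)
  have hsharp : ∀ x : Fin 2 ↪ Ω, stabilizer X x = ⊥ := by
    intro x
    rw [eq_bot_iff]
    intro g hg
    rw [mem_stabilizer_iff] at hg
    by_contra hg1
    have hne : x 0 ≠ x 1 := fun hh => absurd (x.injective hh) (by decide)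
    have h0 : g • x 0 = x 0 := by
      have := congrArg (fun e : Fin 2 ↪ Ω => e 0) hg
      exact this
    have h1 : g • x 1 = x 1 := by
      have := congrArg (fun e : Fin 2 ↪ Ω => e 1) hg
      exact this
    exact hcon g hg1 (x 0) (x 1) hne h0 h1
  obtain ⟨p, j, hp, hj, hα, -⟩ := Cfsg.Agent.S0680.result X hsharp (by rw [h.card]; norm_num)
  rw [h.card] at hα
  have hd : p ∣ 2 * 3 ^ 2 := by
    have : p ∣ p ^ j := dvd_pow_self p (by omega)
    rw [← hα] at this
    exact this
  rcases hp.dvd_mul.mp hd with h2 | h2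
  · have hp2 := (Nat.prime_dvd_prime_iff_eq hp Nat.prime_two).mp h2
    subst hp2
    have hj5 : j < 5 := by
      by_contra hj5
      have : 2 ^ 5 ≤ 2 ^ j := Nat.pow_le_pow_right (by norm_num) (by omega)
      omega
    interval_cases j <;> omega
  · have hp3 := (Nat.prime_dvd_prime_iff_eq hp Nat.prime_three).mp (hp.dvd_of_dvd_pow h2)
    subst hp3
    have hj5 : j < 3 := by
      by_contra hj5
      have : 3 ^ 3 ≤ 3 ^ j := Nat.pow_le_pow_right (by norm_num) (by omega)
      omega
    interval_cases j <;> omega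

theorem zass_of (h : Hyp18 X Ω a A) : IsZassenhausGroup X Ω := zass h (exists_fix2 h)

theorem iso_types (h : Hyp18 X Ω a A) :
    (∃ (F : Type) (_ : Field F) (_ : Fintype F), Fintype.card F = 17 ∧
      Nonempty (X ≃* Matrix.ProjGenLinGroup (Fin 2) F)) ∨
    (∃ (K : Type) (_ : Field K) (_ : Fintype K), Fintype.card K = 17 ∧
      Nonempty (X ≃* Matrix.ProjectiveSpecialLinearGroup (Fin 2) K)) := by
  have hZ := zass_of h
  rcases Cfsg.Agent.S0731.result hZ a A (le_stab h) (normal_subgroupOf h) (comm_A h)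
    (reg_unique h) with ⟨h3, hs⟩ | ⟨K, hK, hK2, hchar, ⟨e⟩⟩
  · left
    obtain ⟨F, hF, hF2, hc, he⟩ := Cfsg.Agent.S0730.result (α := Ω) (p := 17) (f := 1)
      (by norm_num) (by norm_num) (by decide) (by rw [h.card]; norm_num) X h3 hs
    exact ⟨F, hF, hF2, by simpa using hc, he⟩
  · right
    refine ⟨K, hK, hK2, ?_, ⟨e⟩⟩
    have hcard2 : Nontrivial Ω := by
      apply Fintype.one_lt_card_iff_nontrivial.mp
      rw [h.card]
      norm_num
    obtain ⟨b, hb⟩ := exists_ne a
    have hX := card_X h hb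
    have hm := card_E h hZ hb.symm
    have h1 := Cfsg.Agent.Lib.Classical.AltIso.card_psl_two_mul (F := K)
    rw [← Nat.card_congr e.toEquiv, hX] at h1
    set q := Fintype.card K with hq
    have hg : Nat.gcd (q - 1) 2 ≤ 2 := Nat.gcd_le_right _ (by norm_num)
    have hq22 : q ≤ 22 := by
      by_contra hq22
      have h23 : 23 ≤ q := by omega
      have h2 : 23 * ((23 - 1) * (23 + 1)) ≤ q * ((q - 1) * (q + 1)) :=
        Nat.mul_le_mul h23 (Nat.mul_le_mul (by omega) (by omega))
      have h3 : 18 * (17 * Nat.card (E (G := X) a b)) * Nat.gcd (q - 1) 2 ≤ 18 * (17 * 16) * 2 := by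
        apply Nat.mul_le_mul _ hg
        rcases hm with hm | hm <;> rw [hm] <;> norm_num
      rw [h1] at h3
      omega
    rcases hm with hm | hm <;> rw [hm] at h1 <;> interval_cases q <;> first | rfl | (exfalso; revert h1; decide)

end iso

/-- An element of order `9` in `PSL₂(F₁₇)`. -/
def A7 : Matrix.SpecialLinearGroup (Fin 2) (ZMod 17) := ⟨!![0, -1; 1, 7], by decide +kernel⟩

theorem A7_pow9 : A7 ^ 9 = 1 := by decide +kernel

theorem A7_pow3 : (A7 ^ 3).1 0 1 = 3 := by decide +kernel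

theorem exists_order9_zmod :
    ∃ y : Matrix.ProjectiveSpecialLinearGroup (Fin 2) (ZMod 17), orderOf y = 9 := by
  haveI : Fact (Nat.Prime 3) := ⟨Nat.prime_three⟩
  refine ⟨QuotientGroup.mk A7, ?_⟩
  have h := orderOf_eq_prime_pow (p := 3) (n := 1) (x := (QuotientGroup.mk A7 :
    Matrix.ProjectiveSpecialLinearGroup (Fin 2) (ZMod 17))) ?_ ?_
  · rw [h]; norm_num
  · rw [pow_one, ← QuotientGroup.mk_pow, QuotientGroup.eq_one_iff,
      Matrix.SpecialLinearGroup.mem_center_iff]
    rintro ⟨r, hr, hr2⟩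
    have := A7_pow3
    rw [← hr2] at this
    revert this
    simp
    decide
  · have : (3 : ℕ) ^ (1 + 1) = 9 := by norm_num
    rw [this, ← QuotientGroup.mk_pow, A7_pow9]
    rfl

theorem exists_order9_psl (F : Type*) [Field F] [Fintype F] (hF : Fintype.card F = 17) :
    ∃ y : Matrix.ProjectiveSpecialLinearGroup (Fin 2) F, orderOf y = 9 := by
  obtain ⟨y, hy⟩ := exists_order9_zmod
  haveI : Fact (Nat.Prime 17) := ⟨by norm_num⟩
  have hc : Fintype.card (ZMod 17) = Fintype.card F := by rw [hF, ZMod.card]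
  let e : ZMod 17 ≃+* F := FiniteField.ringEquivOfCardEq hc
  refine ⟨Cfsg.Agent.Lib.Classical.FieldTransfer.pslCongr e y, ?_⟩
  rw [MulEquiv.orderOf_eq, hy]

theorem exists_order9_pgl (F : Type*) [Field F] [Fintype F] (hF : Fintype.card F = 17) :
    ∃ y : Matrix.ProjGenLinGroup (Fin 2) F, orderOf y = 9 := by
  obtain ⟨y, hy⟩ := exists_order9_psl F hF
  refine ⟨Matrix.ProjectiveSpecialLinearGroup.toPGL y, ?_⟩
  rw [orderOf_injective _ Matrix.ProjectiveSpecialLinearGroup.toPGL_injective, hy]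

section main

variable {G : Type*} [Group G] [Finite G]

theorem map_conj_eq {H : Type*} [Group H] (f : G →* H) {k : G} (hk : k ∈ f.ker) {r : ℕ}
    [Fact r.Prime] (S : Sylow r G) :
    ((k • S : Sylow r G) : Subgroup G).map f = (S : Subgroup G).map f := by
  rw [Sylow.coe_subgroup_smul]
  have hk1 : f k = 1 := hk
  ext y
  constructor
  · rintro ⟨x, hx, rfl⟩
    obtain ⟨s, hs, rfl⟩ := Subgroup.mem_smul_pointwise_iff_exists _ _ _ |>.mp hx
    refine ⟨s, hs, ?_⟩
    simp [MulAut.smul_def, hk1]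
  · rintro ⟨s, hs, rfl⟩
    refine ⟨MulAut.conj k • s, Subgroup.mem_smul_pointwise_iff_exists _ _ _ |>.mpr ⟨s, hs, rfl⟩, ?_⟩
    simp [MulAut.smul_def, hk1]

theorem norm_of_card_eq {H : Type*} [Group H] [Finite H] (f : G →* H)
    (hf : Function.Surjective f) {r : ℕ} [Fact r.Prime]
    (hc : Nat.card (Sylow r G) = Nat.card (Sylow r H)) (S : Sylow r G) :
    f.ker ≤ normalizer ((S : Subgroup G) : Set G) := by
  intro k hk
  have hbij := (Sylow.mapSurjective_surjective hf r).bijective_of_nat_card_le (by rw [hc])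
  have h1 : k • S = S := by
    apply hbij.1
    apply Sylow.ext
    rw [Sylow.coe_mapSurjective, Sylow.coe_mapSurjective]
    exact map_conj_eq f hk S
  exact Sylow.smul_eq_iff_mem_normalizer.mp h1

theorem le_ker_of_not_dvd {H : Type*} [Group H] [Finite H] (f : G →* H) {r : ℕ} [hr : Fact r.Prime]
    (hrd : ¬ r ∣ Nat.card H) (S : Sylow r G) : (S : Subgroup G) ≤ f.ker := by
  intro s hs
  obtain ⟨k, hk⟩ := S.isPGroup' ⟨s, hs⟩
  have hk' : s ^ r ^ k = 1 := by
    have := congrArg Subtype.val hk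
    simpa using this
  have h1 : orderOf (f s) ∣ r ^ k := by
    apply orderOf_dvd_of_pow_eq_one
    rw [← map_pow, hk', map_one]
  have h2 : orderOf (f s) ∣ Nat.card H := orderOf_dvd_natCard _
  have hcop : Nat.Coprime (r ^ k) (Nat.card H) :=
    Nat.Coprime.pow_left _ ((Nat.Prime.coprime_iff_not_dvd hr.out).mpr hrd)
  have h3 := Nat.eq_one_of_dvd_coprimes hcop h1 h2
  exact orderOf_eq_one_iff.mp h3

theorem main (hZ : center G = ⊥)
    (hNS : {c : ℕ | ∃ r : ℕ, r.Prime ∧ r ∣ Nat.card G ∧ c = Nat.card (Sylow r G)} =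
      ({18, 136, 153} : Set ℕ))
    {F : Type*} [Field F] [Fintype F] (hF : Fintype.card F = 17) :
    Nonempty (G ≃* Matrix.ProjectiveSpecialLinearGroup (Fin 2) F) ∨
      Nonempty (G ≃* (Matrix.GeneralLinearGroup (Fin 2) F ⧸
        Subgroup.center (Matrix.GeneralLinearGroup (Fin 2) F))) := by
  classical
  haveI f17 : Fact (Nat.Prime 17) := ⟨by norm_num⟩
  haveI f2 : Fact (Nat.Prime 2) := ⟨Nat.prime_two⟩
  haveI f3 : Fact (Nat.Prime 3) := ⟨Nat.prime_three⟩
  haveI f5 : Fact (Nat.Prime 5) := ⟨by norm_num⟩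
  haveI f19 : Fact (Nat.Prime 19) := ⟨by norm_num⟩
  obtain ⟨hpr, h17, h2, h3, h5, h19⟩ := sylow_numbers hNS
  letI : Fintype (Sylow 17 G) := Fintype.ofFinite _
  let P : Sylow 17 G := Classical.arbitrary _
  have H := hyp18 h17 P
  have hf : Function.Surjective (phi G).rangeRestrict := MonoidHom.rangeRestrict_surjective _
  have hZass := zass_of H
  haveI hnt : Nontrivial (Sylow 17 G) := by
    apply Finite.one_lt_card_iff_nontrivial.mp
    rw [h17]
    norm_num
  obtain ⟨b, hb⟩ := exists_ne P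
  have hX := card_X H hb
  have hm := card_E H hZass hb.symm
  have hiso := iso_types H
  have hy : ∃ y : (phi G).range, orderOf y = 9 := by
    rcases hiso with ⟨F', _, _, hc, ⟨e⟩⟩ | ⟨K', _, _, hc, ⟨e⟩⟩
    · obtain ⟨y, hy⟩ := exists_order9_pgl F' hc
      exact ⟨e.symm y, by rw [MulEquiv.orderOf_eq, hy]⟩
    · obtain ⟨y, hy⟩ := exists_order9_psl K' hc
      exact ⟨e.symm y, by rw [MulEquiv.orderOf_eq, hy]⟩
  obtain ⟨y, hy⟩ := hy
  have hn2 : Nat.card (Sylow 2 (phi G).range) = 153 := sylow2 hZass hb.symm hm hX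
  have hle3 : Nat.card (Sylow 3 (phi G).range) ≤ 136 := by
    rw [← h3]
    exact Nat.card_le_card_of_surjective _ (Sylow.mapSurjective_surjective hf 3)
  have hn3 := sylow3 H hZass hm hX hy hle3
  have hndvd : ∀ r : ℕ, (r = 5 ∨ r = 19) → ¬ r ∣ Nat.card (phi G).range := by
    rintro r (rfl | rfl) <;> rw [hX] <;> rcases hm with hm | hm <;> rw [hm] <;> norm_num
  have hker : (phi G).ker = ⊥ := by
    apply Cfsg.Agent.Lib.SylNum.KerTriv.ker_eq_bot hZ (MonoidHom.normal_ker _) hpr
    · rintro r (rfl | rfl | rfl) S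
      · rw [← MonoidHom.ker_rangeRestrict]
        exact norm_of_card_eq _ hf (by rw [h2, hn2]) S
      · rw [← MonoidHom.ker_rangeRestrict]
        exact norm_of_card_eq _ hf (by rw [h3, hn3]) S
      · intro k hk
        have h1 : (phi G k) S = S := by
          rw [MonoidHom.mem_ker.mp hk]
          rfl
        exact Sylow.smul_eq_iff_mem_normalizer.mp h1
    · rintro r hr hrd S
      rw [← MonoidHom.ker_rangeRestrict]
      rcases hr with rfl | rfl
      · exact le_ker_of_not_dvd _ (hndvd 5 (Or.inl rfl)) S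
      · exact le_ker_of_not_dvd _ (hndvd 19 (Or.inr rfl)) S
    · rintro r (rfl | rfl) hrd
      · rw [h5 hrd]
        norm_num
      · rw [h19 hrd]
        norm_num
  have hinj : Function.Injective (phi G) := (MonoidHom.ker_eq_bot_iff _).mp hker
  let e₀ : G ≃* (phi G).range := MonoidHom.ofInjective hinj
  rcases hiso with ⟨F', _, _, hc, ⟨e⟩⟩ | ⟨K', _, _, hc, ⟨e⟩⟩
  · right
    let ε : F' ≃+* F := FiniteField.ringEquivOfCardEq (by rw [hc, hF])
    let e1 : Matrix.GeneralLinearGroup (Fin 2) F' ≃* Matrix.GeneralLinearGroup (Fin 2) F :=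
      Units.mapEquiv (RingEquiv.mapMatrix ε).toMulEquiv
    exact ⟨e₀.trans (e.trans (Cfsg.Agent.Lib.Classical.FieldTransfer.centralQuotientCongr e1))⟩
  · left
    let ε : K' ≃+* F := FiniteField.ringEquivOfCardEq (by rw [hc, hF])
    exact ⟨e₀.trans (e.trans (Cfsg.Agent.Lib.Classical.FieldTransfer.pslCongr ε))⟩

end main

end Cfsg.Agent.Lib.SylNum.L217
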