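import Cfsg.Agent.S0731
import Cfsg.Agent.S0730
import Cfsg.Agent.S0680
import Cfsg.Agent.S0741
import Cfsg.Agent.Lib.Zass.NoSharp
import Cfsg.Agent.Lib.Zass.Stab

/-!
# Zassenhaus groups of degree 18 with a regular subgroup of order 17 in a point stabiliser
-/

set_option autoImplicit false
set_option linter.unusedSectionVars false
set_option linter.style.haveILetI false
set_option linter.unusedVariables false

namespace Cfsg.Agent.Lib.SylNum.Zass18

open Cfsg MulAction
open Cfsg.Agent.Lib.Zass.Stab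

variable {X Ω : Type*} [Group X] [Finite X] [MulAction X Ω] [Fintype Ω]

/-- The degree-18 set-up. -/
structure Hyp18 (X Ω : Type*) [Group X] [MulAction X Ω] [Fintype Ω] (a : Ω) (A : Subgroup X) :
    Prop where
  faith : FaithfulSMul X Ω
  card : Fintype.card Ω = 18
  trans : ∀ b c : Ω, ∃ g : X, g • b = c
  fix : ∀ u ∈ A, u • a = a
  norm : ∀ g : X, g • a = a → ∀ u ∈ A, g * u * g⁻¹ ∈ A
  cardA : Nat.card A = 17
  reg : ∀ b c : Ω, b ≠ a → c ≠ a → ∃ u ∈ A, u • b = c

variable {a : Ω} {A : Subgroup X}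

theorem card_ne (h : Hyp18 X Ω a A) : Nat.card {c : Ω // c ≠ a} = 17 := by
  classical
  rw [Nat.card_eq_fintype_card, Fintype.card_subtype_compl, Fintype.card_subtype_eq, h.card]

/-- Regularity of `A` on the remaining points. -/
theorem uniq (h : Hyp18 X Ω a A) {b : Ω} (hb : b ≠ a) {u v : X} (hu : u ∈ A) (hv : v ∈ A)
    (huv : u • b = v • b) : u = v := by
  classical
  have hne : ∀ w : A, (w : X) • b ≠ a := by
    intro w hw
    apply hb
    have : (w : X)⁻¹ • a = a := by
      rw [inv_smul_eq_iff]; exact (h.fix w w.2).symm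
    rw [← this, ← hw, inv_smul_smul]
  let f : A → {c : Ω // c ≠ a} := fun w => ⟨(w : X) • b, hne w⟩
  have hf : Function.Surjective f := by
    rintro ⟨c, hc⟩
    obtain ⟨w, hw, hwc⟩ := h.reg b c hb hc
    exact ⟨⟨w, hw⟩, Subtype.ext hwc⟩
  have hb' : Function.Bijective f := by
    apply hf.bijective_of_nat_card_le
    rw [h.cardA, card_ne h]
  have := hb'.1 (a₁ := ⟨u, hu⟩) (a₂ := ⟨v, hv⟩) (Subtype.ext huv)
  exact congrArg Subtype.val this

/-- Double transitivity. -/
theorem two_trans (h : Hyp18 X Ω a A) {c d e f : Ω} (hcd : c ≠ d) (hef : e ≠ f) :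
    ∃ g : X, g • c = e ∧ g • d = f := by
  obtain ⟨g₁, hg₁⟩ := h.trans c a
  obtain ⟨g₂, hg₂⟩ := h.trans e a
  have h1 : g₁ • d ≠ a := by
    intro hh; rw [← hg₁] at hh; exact hcd (smul_left_cancel _ hh).symm
  have h2 : g₂ • f ≠ a := by
    intro hh; rw [← hg₂] at hh; exact hef (smul_left_cancel _ hh).symm
  obtain ⟨u, hu, huc⟩ := h.reg _ _ h1 h2
  refine ⟨g₂⁻¹ * u * g₁, ?_, ?_⟩
  · rw [mul_smul, mul_smul, hg₁, h.fix u hu, inv_smul_eq_iff, hg₂]
  · rw [mul_smul, mul_smul, huc, inv_smul_smul]

theorem mk_comm (h : Hyp18 X Ω a A) {g u : X} (hu : u ∈ A) (hu1 : u ≠ 1)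
    (hgu : g * u = u * g) {v : X} (hv : v ∈ A) : g * v = v * g := by
  haveI : Fact (Nat.Prime 17) := ⟨by norm_num⟩
  have hcard := h.cardA
  have hne : (⟨u, hu⟩ : A) ≠ 1 := fun hh => hu1 (congrArg Subtype.val hh)
  have hmem : (⟨v, hv⟩ : A) ∈ Subgroup.zpowers (⟨u, hu⟩ : A) :=
    mem_zpowers_of_prime_card hcard hne
  obtain ⟨k, hk⟩ := hmem
  have hk' : u ^ k = v := by
    have := congrArg Subtype.val hk
    simpa using this
  rw [← hk']
  exact ((Commute.zpow_right (show Commute g u from hgu) k))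

theorem fix3_at (h : Hyp18 X Ω a A) {g : X} {b c : Ω} (hb : b ≠ a) (hc : c ≠ a) (hbc : b ≠ c)
    (hga : g • a = a) (hgb : g • b = b) (hgc : g • c = c) : g = 1 := by
  classical
  haveI := h.faith
  obtain ⟨u, hu, huc⟩ := h.reg b c hb hc
  have hu1 : u ≠ 1 := by
    rintro rfl
    rw [one_smul] at huc
    exact hbc huc
  have hconj : g * u * g⁻¹ = u := by
    apply uniq h hb (h.norm g hga u hu) hu
    have : g⁻¹ • b = b := by rw [inv_smul_eq_iff, hgb]
    rw [mul_smul, mul_smul, this, huc, hgc]
  have hcomm : g * u = u * g := by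
    have := congrArg (· * g) hconj
    simpa [mul_assoc] using this
  have hall : ∀ x : Ω, g • x = (1 : X) • x := by
    intro x
    rw [one_smul]
    by_cases hx : x = a
    · rw [hx, hga]
    · obtain ⟨v, hv, hvx⟩ := h.reg b x hb hx
      have hv' := mk_comm h hu hu1 hcomm hv
      rw [← hvx, ← mul_smul, hv', mul_smul, hgb]
  exact FaithfulSMul.eq_of_smul_eq_smul hall

theorem fix3 (h : Hyp18 X Ω a A) {g : X} {b c d : Ω} (hbc : b ≠ c) (hcd : c ≠ d) (hbd : b ≠ d)
    (hb : g • b = b) (hc : g • c = c) (hd : g • d = d) : g = 1 := by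
  obtain ⟨k, hk⟩ := h.trans b a
  have hc' : k • c ≠ a := by
    intro hh; rw [← hk] at hh; exact hbc (smul_left_cancel _ hh).symm
  have hd' : k • d ≠ a := by
    intro hh; rw [← hk] at hh; exact hbd (smul_left_cancel _ hh).symm
  have hcd' : k • c ≠ k • d := fun hh => hcd (smul_left_cancel _ hh)
  have hconj : k * g * k⁻¹ = 1 := by
    apply fix3_at h hc' hd' hcd'
    · rw [mul_smul, mul_smul, ← hk, inv_smul_smul, hb]
    · rw [mul_smul, mul_smul, inv_smul_smul, hc]
    · rw [mul_smul, mul_smul, inv_smul_smul, hd]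
  have : g = k⁻¹ * (k * g * k⁻¹) * k := by group
  rw [this, hconj]; group

/-- No normal subgroup is regular. -/
theorem no_regular (h : Hyp18 X Ω a A) (N : Subgroup X) (hN : N.Normal)
    (htr : IsPretransitive N Ω) : ∃ b : Ω, stabilizer N b ≠ ⊥ := by
  classical
  by_contra hcon
  push Not at hcon
  -- `N` is regular
  have hfree : ∀ (n n' : N) (b : Ω), n • b = n' • b → n = n' := by
    intro n n' b hb
    have : (n'⁻¹ * n) ∈ stabilizer N b := by
      rw [mem_stabilizer_iff, mul_smul, hb, inv_smul_smul]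
    rw [hcon b, Subgroup.mem_bot] at this
    exact (inv_mul_eq_one.mp this).symm
  have hcard : Nat.card N = 18 := by
    have hbij : Function.Bijective (fun n : N => n • a) := by
      constructor
      · intro n n' hh; exact hfree n n' a hh
      · intro c; exact exists_smul_eq N a c
    rw [Nat.card_eq_of_bijective _ hbij, Nat.card_eq_fintype_card, h.card]
  obtain ⟨n2, hn2⟩ := exists_prime_orderOf_dvd_card' (G := N) 2 (by rw [hcard]; norm_num)
  obtain ⟨n3, hn3⟩ := exists_prime_orderOf_dvd_card' (G := N) 3 (by rw [hcard]; norm_num)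
  have hne2 : n2 • a ≠ a := by
    intro hh
    have : n2 = 1 := hfree n2 1 a (by rw [hh, one_smul])
    rw [this, orderOf_one] at hn2
    omega
  have hne3 : n3 • a ≠ a := by
    intro hh
    have : n3 = 1 := hfree n3 1 a (by rw [hh, one_smul])
    rw [this, orderOf_one] at hn3
    omega
  obtain ⟨u, hu, huc⟩ := h.reg _ _ hne2 hne3
  have hmem : u * (n2 : X) * u⁻¹ ∈ N := hN.conj_mem _ n2.2 u
  have heq : (⟨u * (n2 : X) * u⁻¹, hmem⟩ : N) = n3 := by
    apply hfree _ _ a
    have hua : u⁻¹ • a = a := by rw [inv_smul_eq_iff]; exact (h.fix u hu).symm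
    change (u * (n2 : X) * u⁻¹) • a = (n3 : X) • a
    rw [mul_smul, mul_smul, hua]
    exact huc
  have hord : orderOf (u * (n2 : X) * u⁻¹) = 2 := by
    have h1 : orderOf (MulAut.conj u (n2 : X)) = orderOf (n2 : X) :=
      MulEquiv.orderOf_eq _ _
    rw [MulAut.conj_apply] at h1
    rw [h1, Subgroup.orderOf_coe, hn2]
  have hord3 : orderOf (n3 : X) = 3 := by rw [Subgroup.orderOf_coe, hn3]
  rw [← heq] at hord3
  rw [hord] at hord3
  omega

/-- The Zassenhaus property. -/
theorem zass (h : Hyp18 X Ω a A)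
    (hex : ∃ g : X, g ≠ 1 ∧ ∃ b c : Ω, b ≠ c ∧ g • b = b ∧ g • c = c) :
    IsZassenhausGroup X Ω := by
  refine ⟨h.faith, ?_, ?_, ?_, ?_⟩
  · rw [MulAction.is_two_pretransitive_iff]
    intro c d e f hcd hef
    exact two_trans h hcd hef
  · intro g b c d hbc hcd hbd hb hc hd
    exact fix3 h hbc hcd hbd hb hc hd
  · obtain ⟨g, hg, b, c, hbc, hb, hc⟩ := hex
    exact ⟨g, hg, b, c, hbc, hb, hc⟩
  · intro N hN htr
    exact no_regular h N hN htr

theorem le_stab (h : Hyp18 X Ω a A) : A ≤ stabilizer X a := fun u hu => h.fix u hu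

theorem normal_subgroupOf (h : Hyp18 X Ω a A) : (A.subgroupOf (stabilizer X a)).Normal := by
  constructor
  intro n hn g
  rw [Subgroup.mem_subgroupOf] at hn ⊢
  exact h.norm g.1 g.2 n hn

theorem comm_A (h : Hyp18 X Ω a A) : IsMulCommutative A := by
  haveI : Fact (Nat.Prime 17) := ⟨by norm_num⟩
  haveI : IsCyclic A := isCyclic_of_prime_card h.cardA
  exact ⟨⟨fun x y => IsCyclic.commGroup.mul_comm x y⟩⟩

theorem reg_unique (h : Hyp18 X Ω a A) (y z : Ω) (hy : y ≠ a) (hz : z ≠ a) :
    ∃! u : A, (u : X) • y = z := by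
  obtain ⟨u, hu, huz⟩ := h.reg y z hy hz
  refine ⟨⟨u, hu⟩, huz, ?_⟩
  rintro ⟨v, hv⟩ hvz
  apply Subtype.ext
  exact uniq h hy hv hu (hvz.trans huz.symm)

/-- Orders. -/
theorem card_stab_a (h : Hyp18 X Ω a A) : Nat.card X = 18 * Nat.card (stabilizer X a) := by
  classical
  have h1 := Subgroup.card_mul_index (stabilizer X a)
  rw [MulAction.index_stabilizer] at h1
  have h2 : MulAction.orbit X a = Set.univ := by
    ext c
    simp only [Set.mem_univ, iff_true]
    obtain ⟨g, hg⟩ := h.trans a c
    exact ⟨g, hg⟩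
  have hcardΩ : Nat.card Ω = 18 := by rw [Nat.card_eq_fintype_card, h.card]
  rw [h2, Set.ncard_univ, hcardΩ] at h1
  omega

theorem card_X (h : Hyp18 X Ω a A) {b : Ω} (hb : b ≠ a) :
    Nat.card X = 18 * (17 * Nat.card (E (G := X) a b)) := by
  classical
  rw [card_stab_a h]
  congr 1
  let S := stabilizer X a
  have h1 := Subgroup.card_mul_index (stabilizer S b)
  rw [MulAction.index_stabilizer] at h1
  have h2 : MulAction.orbit S b = {c | c ≠ a} := by
    ext c
    constructor
    · rintro ⟨g, rfl⟩ hc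
      apply hb
      have hg : (g : X) • a = a := g.2
      have : (g : X) • b = a := hc
      rw [← hg] at this
      exact smul_left_cancel _ this
    · intro hc
      obtain ⟨u, hu, huc⟩ := h.reg b c hb hc
      exact ⟨⟨u, h.fix u hu⟩, huc⟩
  have h3 : ({c | c ≠ a} : Set Ω).ncard = 17 := by
    rw [← Nat.card_coe_set_eq]
    exact card_ne h
  rw [h2, h3] at h1
  have h4 : Nat.card (stabilizer S b) = Nat.card (E (G := X) a b) := by
    apply Nat.card_congr
    exact
      { toFun := fun x => ⟨x.1.1, x.1.2, x.2⟩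
        invFun := fun x => ⟨⟨x.1, x.2.1⟩, x.2.2⟩
        left_inv := fun x => rfl
        right_inv := fun x => rfl }
  rw [h4] at h1
  rw [← h1, mul_comm]

/-- The order of a two-point stabiliser is `8` or `16`. -/
theorem card_E (h : Hyp18 X Ω a A) (hZ : IsZassenhausGroup X Ω) {b : Ω} (hb : a ≠ b) :
    Nat.card (E (G := X) a b) = 8 ∨ Nat.card (E (G := X) a b) = 16 := by
  have h1 := Cfsg.Agent.Lib.Zass.NoSharp.card_E_dvd hZ hb
  rw [h.card] at h1
  have h2 : Nat.card (E (G := X) a b) ≠ 1 := by
    intro hh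
    have := E_ne_bot hZ hb
    exact this (Subgroup.eq_bot_of_card_eq _ hh)
  have h3 : Even (Nat.card (E (G := X) a b)) := by
    have hm : Nat.card (E (G := X) a b) ∈ Nat.divisors 16 :=
      Nat.mem_divisors.mpr ⟨h1, by norm_num⟩
    have hd : Nat.divisors 16 = {1, 2, 4, 8, 16} := by decide
    rw [hd] at hm
    simp only [Finset.mem_insert, Finset.mem_singleton] at hm
    rcases hm with hm | hm | hm | hm | hm
    · exact absurd hm h2
    all_goals (rw [hm]; decide)
  have h4 : 18 - 2 ≤ 2 * Nat.card (E (G := X) a b) := by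
    have h5 := Cfsg.Agent.S0741.result hZ hb h3
    rw [h.card] at h5
    exact h5
  have hle : Nat.card (E (G := X) a b) ≤ 16 := Nat.le_of_dvd (by norm_num) h1
  have hm : Nat.card (E (G := X) a b) ∈ Nat.divisors 16 :=
    Nat.mem_divisors.mpr ⟨h1, by norm_num⟩
  have hd : Nat.divisors 16 = {1, 2, 4, 8, 16} := by decide
  rw [hd] at hm
  simp only [Finset.mem_insert, Finset.mem_singleton] at hm
  omega

theorem fac_eq {p k c : ℕ} (hp : p.Prime) (hc : ¬ p ∣ c) : (p ^ k * c).factorization p = k := by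
  have hc0 : c ≠ 0 := by
    rintro rfl
    exact hc (dvd_zero _)
  rw [Nat.factorization_mul (pow_ne_zero _ hp.ne_zero) hc0, Finsupp.add_apply,
    Nat.factorization_pow, Finsupp.smul_apply, hp.factorization_self,
    Nat.factorization_eq_zero_of_not_dvd hc]
  simp

/-- There is an element of `E` whose square is not trivial. -/
theorem exists_sq_ne (hZ : IsZassenhausGroup X Ω) {a b : Ω} (hab : a ≠ b)
    (hm : 3 ≤ Nat.card (E (G := X) a b)) : ∃ c ∈ E (G := X) a b, c * c ≠ 1 := by
  classical
  by_contra hcon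
  push Not at hcon
  haveI : Fintype (E (G := X) a b) := Fintype.ofFinite _
  rw [Nat.card_eq_fintype_card] at hm
  obtain ⟨p, q, r, hpq, hpr, hqr⟩ := Fintype.two_lt_card_iff.mp (by omega : 2 < Fintype.card (E (G := X) a b))
  have key : ∀ s t : E (G := X) a b, s ≠ 1 → t ≠ 1 → s = t := by
    intro s t hs ht
    apply Subtype.ext
    apply Cfsg.Agent.Lib.Zass.Basic.unique_involution hZ hab s.2.1 s.2.2 t.2.1 t.2.2
    · exact fun h => hs (Subtype.ext h)
    · exact hcon s s.2
    · exact fun h => ht (Subtype.ext h)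
    · exact hcon t t.2
  by_cases hp : p = 1
  · exact hqr (key q r (fun h => hpq (hp.trans h.symm)) (fun h => hpr (hp.trans h.symm)))
  · by_cases hq : q = 1
    · exact hpr (key p r hp (fun h => hqr (hq.trans h.symm)))
    · exact hpq (key p q hp hq)

/-- The number of Sylow `2`-subgroups. -/
theorem sylow2 (hZ : IsZassenhausGroup X Ω) {a b : Ω} (hab : a ≠ b)
    (hm : Nat.card (E (G := X) a b) = 8 ∨ Nat.card (E (G := X) a b) = 16)
    (hX : Nat.card X = 18 * (17 * Nat.card (E (G := X) a b))) :
    Nat.card (Sylow 2 X) = 153 := by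
  haveI : Fact (Nat.Prime 2) := ⟨Nat.prime_two⟩
  have hB := card_B hZ hab
  have hS : Nat.card (B (G := X) a b) = 2 ^ (Nat.card X).factorization 2 := by
    rw [hX, hB]
    rcases hm with hm | hm <;> rw [hm]
    · have : 18 * (17 * 8) = 2 ^ 4 * 153 := by norm_num
      rw [this, fac_eq Nat.prime_two (by norm_num)]; norm_num
    · have : 18 * (17 * 16) = 2 ^ 5 * 153 := by norm_num
      rw [this, fac_eq Nat.prime_two (by norm_num)]; norm_num
  let S : Sylow 2 X := Sylow.ofCard (B (G := X) a b) hS
  have hSc : (S : Subgroup X) = B (G := X) a b := Sylow.coe_ofCard _ _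
  rw [Sylow.card_eq_index_normalizer S]
  change (Subgroup.normalizer ((S : Subgroup X) : Set X)).index = 153
  rw [hSc]
  have hnorm : Subgroup.normalizer ((B (G := X) a b : Subgroup X) : Set X) = B (G := X) a b := by
    apply le_antisymm _ Subgroup.le_normalizer
    intro y hy
    by_contra hyB
    obtain ⟨c, hc, hc1⟩ := exists_sq_ne hZ hab (by rcases hm with hm | hm <;> omega)
    have hres := (Cfsg.Agent.S0879.result hZ hab).1 y hyB
    have hcB : c ∈ B (G := X) a b := E_le_B a b hc
    have hw : y * c * y⁻¹ ∈ B (G := X) a b := (Subgroup.mem_normalizer_iff.mp hy c).mp hcB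
    have hidx := (Cfsg.Agent.S0879.result hZ hab).2
    have hww := Subgroup.mul_self_mem_of_index_two hidx (⟨y * c * y⁻¹, hw⟩ : B (G := X) a b)
    rw [Subgroup.mem_subgroupOf] at hww
    have hww' : y * (c * c) * y⁻¹ ∈ E (G := X) a b := by
      have : y * (c * c) * y⁻¹ = (y * c * y⁻¹) * (y * c * y⁻¹) := by group
      rw [this]
      exact hww
    exact hc1 (hres (c * c) ((E (G := X) a b).mul_mem hc hc) hww')
  rw [hnorm]
  have h1 := Subgroup.card_mul_index (B (G := X) a b)
  rw [hB, hX] at h1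
  rcases hm with hm | hm <;> rw [hm] at h1 <;> omega

theorem card_stab_pt (h : Hyp18 X Ω a A) (b : Ω) : Nat.card X = 18 * Nat.card (stabilizer X b) := by
  classical
  have h1 := Subgroup.card_mul_index (stabilizer X b)
  rw [MulAction.index_stabilizer] at h1
  have h2 : MulAction.orbit X b = Set.univ := by
    ext c
    simp only [Set.mem_univ, iff_true]
    obtain ⟨g, hg⟩ := h.trans b c
    exact ⟨g, hg⟩
  have hcardΩ : Nat.card Ω = 18 := by rw [Nat.card_eq_fintype_card, h.card]
  rw [h2, Set.ncard_univ, hcardΩ] at h1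
  omega

/-- An element of order `9` fixes no point. -/
theorem not_fix9 (h : Hyp18 X Ω a A) {m : ℕ} (hm : m = 8 ∨ m = 16) (hX : Nat.card X = 18 * (17 * m))
    {y : X} (hy : orderOf y = 9) (c : Ω) : y • c ≠ c := by
  intro hc
  have hc' : y ∈ stabilizer X c := mem_stabilizer_iff.mpr hc
  have h1 : orderOf (⟨y, hc'⟩ : stabilizer X c) ∣ Nat.card (stabilizer X c) := orderOf_dvd_natCard _
  rw [Subgroup.orderOf_mk, hy] at h1
  have h2 := card_stab_pt h c
  rw [hX] at h2
  have h3 : Nat.card (stabilizer X c) = 17 * m := by omega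
  rw [h3] at h1
  rcases hm with rfl | rfl <;> omega

/-- The number of Sylow `3`-subgroups. -/
theorem sylow3 (h : Hyp18 X Ω a A) (hZ : IsZassenhausGroup X Ω) {m : ℕ} (hm : m = 8 ∨ m = 16)
    (hX : Nat.card X = 18 * (17 * m)) {y : X} (hy : orderOf y = 9)
    (hle : Nat.card (Sylow 3 X) ≤ 136) : Nat.card (Sylow 3 X) = 136 := by
  classical
  haveI : Fact (Nat.Prime 3) := ⟨Nat.prime_three⟩
  have hT : Nat.card (Subgroup.zpowers y) = 9 := by rw [Nat.card_zpowers, hy]
  have hS : Nat.card (Subgroup.zpowers y) = 3 ^ (Nat.card X).factorization 3 := by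
    rw [hX, hT]
    rcases hm with rfl | rfl
    · have : 18 * (17 * 8) = 3 ^ 2 * 272 := by norm_num
      rw [this, fac_eq Nat.prime_three (by norm_num)]; norm_num
    · have : 18 * (17 * 16) = 3 ^ 2 * 544 := by norm_num
      rw [this, fac_eq Nat.prime_three (by norm_num)]; norm_num
  let S : Sylow 3 X := Sylow.ofCard (Subgroup.zpowers y) hS
  have hSc : (S : Subgroup X) = Subgroup.zpowers y := Sylow.coe_ofCard _ _
  have hmod : Nat.card (Sylow 3 X) % 3 = 1 := card_sylow_modEq_one 3 X
  have hidx : Nat.card (Sylow 3 X) =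
      (Subgroup.normalizer ((Subgroup.zpowers y : Subgroup X) : Set X)).index := by
    rw [Sylow.card_eq_index_normalizer S]
    change (Subgroup.normalizer ((S : Subgroup X) : Set X)).index = _
    rw [hSc]
  set T : Subgroup X := Subgroup.zpowers y with hTdef
  set N : Subgroup X := Subgroup.normalizer (T : Set X) with hNdef
  set C : Subgroup X := Subgroup.centralizer (T : Set X) with hCdef
  have hyT : y ∈ T := Subgroup.mem_zpowers y
  -- the centraliser acts freely
  have hfree : ∀ w ∈ C, ∀ c : Ω, w • c = c → w = 1 := by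
    intro w hw c hc
    have h1 : y • c ≠ c := not_fix9 h hm hX hy c
    have h2 : (y * y) • c ≠ c := by
      intro hh
      apply h1
      have hy9 : y ^ 9 = 1 := by rw [← hy]; exact pow_orderOf_eq_one y
      have h10 : (y * y) ^ 5 = y := by
        calc (y * y) ^ 5 = y ^ 9 * y := by
              rw [← pow_two, ← pow_mul, ← pow_succ]
          _ = y := by rw [hy9, one_mul]
      have h3 : ∀ k : ℕ, ((y * y) ^ k) • c = c := by
        intro k
        induction k with
        | zero => simp
        | succ k ih => rw [pow_succ, mul_smul, hh, ih]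
      have h4 := h3 5
      rwa [h10] at h4
    have h3 : y • c ≠ (y * y) • c := by
      intro hh
      rw [mul_smul] at hh
      exact h1 (smul_left_cancel _ hh).symm
    have hwy : w * y = y * w := (Subgroup.mem_centralizer_iff.mp hw y hyT).symm
    have h4 : w • (y • c) = y • c := by
      rw [← mul_smul, hwy, mul_smul, hc]
    have h5 : w • ((y * y) • c) = (y * y) • c := by
      rw [mul_smul, ← mul_smul, hwy, mul_smul, h4]
    exact fix3 h h1.symm h3 h2.symm hc h4 h5
  have hC : Nat.card C ≤ 18 := by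
    have hinj : Function.Injective (fun w : C => (w : X) • a) := by
      intro w w' hh
      have hh' : (w : X) • a = (w' : X) • a := hh
      have h1 : ((w' : X)⁻¹ * (w : X)) ∈ C := C.mul_mem (C.inv_mem w'.2) w.2
      have h2 := hfree _ h1 a (by rw [mul_smul, hh', inv_smul_smul])
      exact Subtype.ext (inv_mul_eq_one.mp h2).symm
    have := Nat.card_le_card_of_injective _ hinj
    rwa [Nat.card_eq_fintype_card (α := Ω), h.card] at this
  let f := T.normalizerMonoidHom
  have hker : f.ker = C.subgroupOf (Subgroup.normalizer (T : Set X)) := T.normalizerMonoidHom_ker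
  have hcardN : Nat.card f.ker * Nat.card f.range = Nat.card (Subgroup.normalizer (T : Set X)) := by
    have := Subgroup.card_mul_index f.ker
    rwa [Subgroup.index_ker] at this
  have hkerC : Nat.card f.ker ≤ Nat.card C := by
    rw [hker]
    have hinj : Function.Injective (fun w : C.subgroupOf (Subgroup.normalizer (T : Set X)) =>
        (⟨w.1.1, w.2⟩ : C)) := by
      intro w w' hh
      apply Subtype.ext
      apply Subtype.ext
      exact congrArg (fun z : C => (z : X)) hh
    exact Nat.card_le_card_of_injective _ hinj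
  have hrange6 : Nat.card f.range ∣ 6 := by
    have h1 : Nat.card f.range ∣ Nat.card (MulAut T) := Subgroup.card_subgroup_dvd_card _
    rw [IsCyclic.card_mulAut, hT] at h1
    have h6 : Nat.totient 9 = 6 := by decide
    rwa [h6] at h1
  have hker9 : 9 ∣ Nat.card f.ker := by
    have hle : T.subgroupOf (Subgroup.normalizer (T : Set X)) ≤ f.ker := by
      intro t ht
      rw [hker, Subgroup.mem_subgroupOf]
      rw [Subgroup.mem_subgroupOf] at ht
      rw [hCdef, Subgroup.mem_centralizer_iff]
      intro s hs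
      obtain ⟨k, hk⟩ := hs
      obtain ⟨l, hl⟩ := ht
      change y ^ k = s at hk
      change y ^ l = (t : X) at hl
      rw [← hk, ← hl]
      exact (Commute.zpow_zpow_self y k l)
    have h1 := Subgroup.card_dvd_of_le hle
    have h2 : Nat.card (T.subgroupOf (Subgroup.normalizer (T : Set X))) = 9 := by
      rw [Nat.card_congr (Subgroup.subgroupOfEquivOfLe (Subgroup.le_normalizer)).toEquiv]
      exact hT
    rwa [h2] at h1
  have hNX : Nat.card (Subgroup.normalizer (T : Set X)) ∣ Nat.card X :=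
    Subgroup.card_subgroup_dvd_card _
  have hrange3 : ¬ 3 ∣ Nat.card f.range := by
    intro h3
    have h27 : 27 ∣ Nat.card (Subgroup.normalizer (T : Set X)) := by
      rw [← hcardN]
      exact mul_dvd_mul hker9 h3
    have := h27.trans hNX
    rw [hX] at this
    rcases hm with rfl | rfl <;> omega
  have hrange2 : Nat.card f.range ≤ 2 := by
    have hm6 : Nat.card f.range ∈ Nat.divisors 6 := Nat.mem_divisors.mpr ⟨hrange6, by norm_num⟩
    have hd : Nat.divisors 6 = {1, 2, 3, 6} := by decide
    rw [hd] at hm6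
    simp only [Finset.mem_insert, Finset.mem_singleton] at hm6
    rcases hm6 with h6 | h6 | h6 | h6
    · omega
    · omega
    · exact absurd (by rw [h6]) hrange3
    · exact absurd (by rw [h6]; norm_num) hrange3
  have hN36 : Nat.card (Subgroup.normalizer (T : Set X)) ≤ 36 := by
    rw [← hcardN]
    calc Nat.card f.ker * Nat.card f.range ≤ 18 * 2 := Nat.mul_le_mul (hkerC.trans hC) hrange2
      _ = 36 := by norm_num
  have hprod := Subgroup.index_mul_card (Subgroup.normalizer (T : Set X))
  rw [← hidx, hX] at hprod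
  set n := Nat.card (Sylow 3 X) with hn
  have hn1 : 68 ≤ n := by
    have h1 : n * Nat.card (Subgroup.normalizer (T : Set X)) ≤ n * 36 := Nat.mul_le_mul_left _ hN36
    rcases hm with rfl | rfl <;> omega
  have hn2 : n ∣ 4896 := by
    have h1 : n ∣ 18 * (17 * m) := ⟨_, hprod.symm⟩
    rcases hm with rfl | rfl
    · exact h1.trans (by norm_num)
    · exact h1
  have hkey : ∀ k ∈ Finset.Icc 68 136, k % 3 = 1 → k ∣ 4896 → k = 136 := by decide
  exact hkey n (Finset.mem_Icc.mpr ⟨hn1, hle⟩) hmod hn2

end Cfsg.Agent.Lib.SylNum.Zass18
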